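import Mathlib
import Cfsg.Agent.Lib.Helper41.CS3.GoodDefs
import Cfsg.Agent.Lib.Helper24.CS3.Basics
import Cfsg.Agent.Lib.Helper71.CS3.Basics

/-!
# CS3 (S4284), part GOOD: small tools for the packages S3, S4B, S4.
-/

set_option autoImplicit false

namespace Cfsg.Agent.Lib.Helper11.CS3

open Cfsg.Agent.Lib.Helper41.CS3 Cfsg.Agent.Lib.Helper81.CS3

universe u

variable {G : Type u} [Group G]

theorem mem_Cn_iff (x y : G) : y ∈ Cn x ↔ x * y = y * x := by
  simp [Cn, Subgroup.mem_centralizer_iff]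

/-- `y ∈ C(g x g⁻¹) ↔ g⁻¹ y g ∈ C(x)`. -/
theorem mem_Cn_conj_iff (g x y : G) : y ∈ Cn (g * x * g⁻¹) ↔ g⁻¹ * y * g ∈ Cn x := by
  rw [mem_Cn_iff, mem_Cn_iff]
  constructor
  · intro h
    have h2 : x * (g⁻¹ * y * g) = g⁻¹ * (g * x * g⁻¹ * y) * g := by group
    rw [h2, h]
    group
  · intro h
    have h2 : g * x * g⁻¹ * y = g * (x * (g⁻¹ * y * g)) * g⁻¹ := by group
    rw [h2, h]
    group

/-- if `n = t ^ k > 1` is coprime to `m` then `t ∤ m`. -/
theorem t_not_dvd {m n t k : ℕ} (hyp : Hyp G m n) (htp : t.Prime) (hk : n = t ^ k) : ¬ t ∣ m := by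
  intro htm
  have hn := hyp.2.2.1
  have hcop := hyp.2.2.2.1
  have hk0 : k ≠ 0 := by
    rintro rfl
    rw [pow_zero] at hk
    omega
  have htn : t ∣ n := by
    rw [hk]
    exact dvd_pow_self t hk0
  have h1 : t ∣ 1 := by
    have := Nat.dvd_gcd htm htn
    rwa [hcop] at this
  exact htp.one_lt.ne' (Nat.dvd_one.1 h1)

/-- `C(a) ≤ C(w)` and `i(a) = m`, `w` not central: `C(w) = C(a)`. -/
theorem Cn_eq_of_le [Finite G] {m n : ℕ} (hyp : Hyp G m n) (a w : G) (hia : ix a = m)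
    (hw : w ∉ Subgroup.center G) (hle : Cn a ≤ Cn w) : Cn w = Cn a := by
  have hm := hyp.2.1
  have hn := hyp.2.2.1
  have hdvd : ix w ∣ m := hia ▸ Subgroup.index_dvd_of_le hle
  have hiw : ix w = m := by
    rcases Cfsg.Agent.Lib.Helper71.CS3.idx_cases hyp w with h | h | h
    · exact absurd ((Cfsg.Agent.Lib.Helper71.CS3.idx_eq_one_iff w).1 h) hw
    · exact h
    · exfalso
      have h2 : m * n ∣ m := by
        have := hdvd
        rwa [show ix w = m * n from h] at this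
      have h3 : m * n ≤ m := Nat.le_of_dvd (by omega) h2
      nlinarith
  -- equal index and `≤`: equal
  symm
  apply Subgroup.eq_of_le_of_card_ge hle
  have h1 := Subgroup.card_mul_index (Cn a)
  have h2 := Subgroup.card_mul_index (Cn w)
  rw [show (Cn a).index = m from hia] at h1
  rw [show (Cn w).index = m from hiw] at h2
  have h3 : Nat.card (Cn w) * m = Nat.card (Cn a) * m := by rw [h1, h2]
  exact (Nat.eq_of_mul_eq_mul_right (by omega) h3).le

end Cfsg.Agent.Lib.Helper11.CS3
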