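import Mathlib
import Cfsg.Agent.Lib.Helper11.CS3.GoodTools

/-!
# CS3 (S4284), part GOOD: package [S3] (Step 3)
-/

set_option autoImplicit false

namespace Cfsg.Agent.Lib.Helper11.CS3

open Cfsg.Agent.Lib.Helper41.CS3 Cfsg.Agent.Lib.Helper81.CS3

universe u

/-- in `C(a) = A × T` an element of `C(a)` centralizing `T` has `C(a) ≤ C(w)`. -/
theorem conf_Cn_le {G : Type u} [Group G] {n t : ℕ} {a : G} {A T : Subgroup G}
    (hconf : Conf n t a A T) (w : G) (hwT : w ∈ Subgroup.centralizer (T : Set G)) :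
    Cn a ≤ Cn w := by
  have hwa : w ∈ Cn a := hconf.cent hwT
  rw [← hconf.sup]
  apply sup_le
  · intro x hx
    rw [mem_Cn_iff]
    have h1 : A ⊔ T ≤ Cn x :=
      sup_le (fun y hy => (mem_Cn_iff x y).2 (hconf.a_ab x hx y hy))
        (fun y hy => (mem_Cn_iff x y).2 (hconf.a_t x hx y hy))
    have h2 : w ∈ Cn x := h1 (hconf.sup ▸ hwa)
    exact ((mem_Cn_iff x w).1 h2).symm
  · intro x hx
    rw [mem_Cn_iff]
    exact ((Subgroup.mem_centralizer_iff.1 hwT) x hx).symm

/-- [S3] Step 3. -/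
theorem pkgS3_of (hSylow : PkgSylow.{u}) : PkgS3.{u} := by
  intro G _ _ m n hyp t a A T hia hconf v hiv
  have htp := hconf.tp
  obtain ⟨k, hk⟩ := hconf.tn
  have htm : ¬ t ∣ m := t_not_dvd hyp htp hk
  have hm := hyp.2.1
  obtain ⟨g, hg⟩ := hSylow t htp T (Cn v) hconf.pT
    (by rw [show (Cn v).index = m from hiv]; exact htm)
  -- `w := g⁻¹ v g` centralizes `T`
  have hwT : g⁻¹ * v * g ∈ Subgroup.centralizer (T : Set G) := by
    rw [Subgroup.mem_centralizer_iff]
    intro x hx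
    have h1 := (mem_Cn_iff v _).1 (hg x hx)
    have h2 : x * (g⁻¹ * v * g) = g⁻¹ * (g * x * g⁻¹ * v) * g := by group
    rw [h2, ← h1]
    group
  have hle : Cn a ≤ Cn (g⁻¹ * v * g) := conf_Cn_le hconf _ hwT
  have hvc : v ∉ Subgroup.center G := by
    intro hv
    have := (Cfsg.Agent.Lib.Helper71.CS3.idx_eq_one_iff v).2 hv
    rw [show (Subgroup.centralizer ({v} : Set G)).index = m from hiv] at this
    omega
  have hwc : g⁻¹ * v * g ∉ Subgroup.center G := by
    intro hw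
    apply hvc
    have h2 : g * (g⁻¹ * v * g) = (g⁻¹ * v * g) * g := Subgroup.mem_center_iff.1 hw g
    have h3 : v = g⁻¹ * v * g := by
      have h4 : g * (g⁻¹ * v * g) = v * g := by group
      rw [h4] at h2
      have := congrArg (fun z => z * g⁻¹) h2
      simpa using this
    rw [h3]
    exact hw
  have heq : Cn (g⁻¹ * v * g) = Cn a := Cn_eq_of_le hyp a _ hia hwc hle
  refine ⟨g, ?_⟩
  ext y
  rw [mem_Cn_conj_iff, ← heq, mem_Cn_iff, mem_Cn_iff]
  constructor
  · intro h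
    have h2 : g⁻¹ * v * g * (g⁻¹ * y * g) = g⁻¹ * (v * y) * g := by group
    rw [h2, h]
    group
  · intro h
    have h2 : v * y = g * (g⁻¹ * v * g * (g⁻¹ * y * g)) * g⁻¹ := by group
    rw [h2, h]
    group

end Cfsg.Agent.Lib.Helper11.CS3
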