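import Mathlib
import Cfsg.Agent.Lib.Helper11.CS3.GoodTools

/-!
# CS3 (S4284), part GOOD: package [S4] (Step 4)
-/

set_option autoImplicit false

namespace Cfsg.Agent.Lib.Helper11.CS3

open Cfsg.Agent.Lib.Helper41.CS3 Cfsg.Agent.Lib.Helper81.CS3

universe u

/-- conjugation invariance of the class size. -/
theorem ix_conj {G : Type u} [Group G] (g x : G) : ix (g * x * g⁻¹) = ix x := by
  have h : Cn (g * x * g⁻¹) = (Cn x).map ((MulAut.conj g : G ≃* G) : G →* G) := by
    ext y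
    rw [mem_Cn_conj_iff, Subgroup.mem_map]
    constructor
    · intro hy
      refine ⟨g⁻¹ * y * g, hy, ?_⟩
      simp only [MonoidHom.coe_coe, MulAut.conj_apply]
      group
    · rintro ⟨z, hz, rfl⟩
      simp only [MonoidHom.coe_coe, MulAut.conj_apply]
      have h1 : g⁻¹ * (g * z * g⁻¹) * g = z := by group
      rw [h1]
      exact hz
  show (Cn (g * x * g⁻¹)).index = (Cn x).index
  rw [h, Subgroup.index_map_equiv]

/-- conjugation invariance of `Prim`. -/
theorem prim_conj {G : Type u} [Group G] (r : ℕ) (g x : G) (h : Prim r x) :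
    Prim r (g * x * g⁻¹) := by
  obtain ⟨k, hk⟩ := h
  refine ⟨k, ?_⟩
  have h1 := orderOf_injective ((MulAut.conj g : G ≃* G) : G →* G) (MulAut.conj g).injective x
  simp only [MonoidHom.coe_coe, MulAut.conj_apply] at h1
  rw [h1, hk]

/-- `H ≤ K` of equal index in a finite group are equal. -/
theorem eq_of_le_of_index_eq' {G : Type u} [Group G] [Finite G] {H K : Subgroup G}
    (hle : H ≤ K) (h : H.index = K.index) : H = K := by
  apply Subgroup.eq_of_le_of_card_ge hle
  have h1 := Subgroup.card_mul_index H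
  have h2 := Subgroup.card_mul_index K
  have h0 : K.index ≠ 0 := Subgroup.index_ne_zero_of_finite
  rw [h] at h1
  have h3 : Nat.card K * K.index = Nat.card H * K.index := by rw [h1, h2]
  exact (Nat.eq_of_mul_eq_mul_right (Nat.pos_of_ne_zero h0) h3).le

/-- [S4] Step 4. -/
theorem pkgS4_of (hS4b : PkgS4b.{u}) (hAt : PkgAt.{u}) : PkgS4.{u} := by
  intro G _ _ m n hyp s t a A T hgood hconf hS3 r u hr hrm hpu hiu
  have htp := hconf.tp
  obtain ⟨k, hk⟩ := hconf.tn
  have htm : ¬ t ∣ m := t_not_dvd hyp htp hk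
  have hm := hyp.2.1
  have hn := hyp.2.2.1
  have hrt : r ≠ t := fun h => htm (h ▸ hrm)
  have hst : s ≠ t := fun h => htm (h ▸ hgood.sm)
  -- no conjugate of `u` lies in `C(a)`
  have hfinal : ∀ h : G, h * u * h⁻¹ ∈ Cn a → False := by
    intro h hmem
    have hle : Cn a ≤ Cn (h * u * h⁻¹) :=
      hAt n t a A T hconf r (h * u * h⁻¹) hr hrt (prim_conj r h u hpu) hmem
    have hdvd : ix (h * u * h⁻¹) ∣ ix a := Subgroup.index_dvd_of_le hle
    rw [ix_conj, hiu, hgood.ixa] at hdvd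
    have h3 : m * n ≤ m := Nat.le_of_dvd (by omega) hdvd
    nlinarith
  obtain ⟨g, v, hvT, ⟨z, hzT, hvz⟩, hvmem⟩ := hS4b m n hyp t a A T hconf u hiu
  have hvTle : T ≤ Cn a := by
    rw [← hconf.sup]
    exact le_sup_right
  -- `v` commutes with `u1 := g u g⁻¹`
  have hcomm : (g * u * g⁻¹) * v = v * (g * u * g⁻¹) := (mem_Cn_iff _ _).1 hvmem
  have hu1v : g * u * g⁻¹ ∈ Cn v := (mem_Cn_iff _ _).2 hcomm.symm
  have hvc : v ∉ Subgroup.center G := by
    intro hv
    exact hvz ((Subgroup.mem_center_iff.1 hv z).symm)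
  rcases Cfsg.Agent.Lib.Helper71.CS3.idx_cases hyp v with h1 | h1 | h1
  · exact hvc ((Cfsg.Agent.Lib.Helper71.CS3.idx_eq_one_iff v).1 h1)
  · -- `ix v = m`
    obtain ⟨g', hg'⟩ := hS3 v h1
    have h2 : g * u * g⁻¹ ∈ Cn (g' * a * g'⁻¹) := hg' ▸ hu1v
    rw [mem_Cn_conj_iff] at h2
    apply hfinal (g'⁻¹ * g)
    have h3 : g'⁻¹ * g * u * (g'⁻¹ * g)⁻¹ = g'⁻¹ * (g * u * g⁻¹) * g' := by group
    rw [h3]
    exact h2
  · -- `ix v = m n`
    have hav : Commute a v := (mem_Cn_iff a v).1 (hvTle hvT)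
    obtain ⟨k1, hk1⟩ := hgood.prim
    have hvord : ∃ j, orderOf v = t ^ j := by
      obtain ⟨j, hj⟩ := hconf.pT ⟨v, hvT⟩
      have h2 : v ^ t ^ j = 1 := by
        have := congrArg Subtype.val hj
        simpa using this
      exact (Nat.dvd_prime_pow htp).1 (orderOf_dvd_of_pow_eq_one h2) |>.imp fun _ h => h.2
    obtain ⟨j, hj⟩ := hvord
    have hco : (orderOf a).Coprime (orderOf v) := by
      rw [hk1, hj]
      exact Nat.Coprime.pow _ _ ((Nat.coprime_primes hgood.sp htp).2 hst)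
    have hB2 := Cfsg.Agent.Lib.Helper24.CS3.centralizer_mul_of_coprime a v hav hco
    have hle1 : (Cn (a * v)).index ≤ m * n := Cfsg.Agent.Lib.Helper24.CS3.index_le hyp (a * v)
    have hle2 : Cn a ⊓ Cn v ≤ Cn v := inf_le_right
    have hdvd : (Cn v).index ∣ (Cn a ⊓ Cn v).index := Subgroup.index_dvd_of_le hle2
    have hidx : (Cn a ⊓ Cn v).index = (Cn v).index := by
      have h0 : (Cn a ⊓ Cn v).index ≠ 0 := Subgroup.index_ne_zero_of_finite
      have h4 : (Cn a ⊓ Cn v).index ≤ m * n := by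
        have : Cn (a * v) = Cn a ⊓ Cn v := hB2
        rw [← this]
        exact hle1
      have h5 : (Cn v).index = m * n := h1
      rw [h5] at hdvd ⊢
      exact le_antisymm h4 (Nat.le_of_dvd (Nat.pos_of_ne_zero h0) hdvd)
    have heq : Cn a ⊓ Cn v = Cn v := eq_of_le_of_index_eq' hle2 hidx
    have hle3 : Cn v ≤ Cn a := heq ▸ inf_le_left
    exact hfinal g (hle3 hu1v)

end Cfsg.Agent.Lib.Helper11.CS3
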