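import Mathlib
import Cfsg.Agent.Lib.Helper11.CS3.GoodTools

/-!
# CS3 (S4284), part GOOD: package [S4B] (the Sylow part of Step 4)
-/

set_option autoImplicit false

namespace Cfsg.Agent.Lib.Helper11.CS3

open Cfsg.Agent.Lib.Helper41.CS3 Cfsg.Agent.Lib.Helper81.CS3

universe u

/-- uniqueness of the `t`-part. -/
theorem pow_mul_eq {t a b x y : ℕ} (ht : t.Prime) (hx : ¬ t ∣ x) (hy : ¬ t ∣ y)
    (h : t ^ a * x = t ^ b * y) : a = b := by
  have hx0 : x ≠ 0 := fun h0 => hx (h0 ▸ dvd_zero t)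
  have hy0 : y ≠ 0 := fun h0 => hy (h0 ▸ dvd_zero t)
  have ht0 : t ≠ 0 := ht.ne_zero
  have h1 := congrArg (fun z => z.factorization t) h
  simp only [Nat.factorization_mul (pow_ne_zero a ht0) hx0,
    Nat.factorization_mul (pow_ne_zero b ht0) hy0, ht.factorization_pow, Finsupp.add_apply,
    Finsupp.single_eq_same, Nat.factorization_eq_zero_of_not_dvd hx,
    Nat.factorization_eq_zero_of_not_dvd hy, add_zero] at h1
  exact h1

/-- [S4B] the Sylow part of Step 4. -/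
theorem pkgS4b_of (hSylow : PkgSylow.{u}) : PkgS4b.{u} := by
  intro G _ _ m n hyp t a A T hconf u hiu
  have htp := hconf.tp
  haveI : Fact t.Prime := ⟨htp⟩
  obtain ⟨k, hk⟩ := hconf.tn
  have htm : ¬ t ∣ m := t_not_dvd hyp htp hk
  have hm := hyp.2.1
  have hn := hyp.2.2.1
  -- a Sylow `t`-subgroup of `C(u)`
  obtain ⟨P'⟩ : Nonempty (Sylow t ↥(Cn u)) := inferInstance
  obtain ⟨P, hP⟩ : ∃ P : Subgroup G, P = (P' : Subgroup ↥(Cn u)).map (Cn u).subtype := ⟨_, rfl⟩
  have hPp : IsPGroup t P := by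
    rw [hP]
    exact P'.isPGroup'.map _
  have hPle : P ≤ Cn u := by
    rw [hP]
    exact Subgroup.map_subtype_le _
  have hcardP : Nat.card P = Nat.card (P' : Subgroup ↥(Cn u)) := by
    rw [hP]
    exact Subgroup.card_map_of_injective (Subgroup.subtype_injective _)
  obtain ⟨e, he⟩ := hconf.pT.exists_card_eq
  obtain ⟨j, hj⟩ := P'.isPGroup'.exists_card_eq
  have hidx' : ¬ t ∣ (P' : Subgroup ↥(Cn u)).index := P'.not_dvd_index
  have h1 : Nat.card (P' : Subgroup ↥(Cn u)) * (P' : Subgroup ↥(Cn u)).index = Nat.card (Cn u) :=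
    Subgroup.card_mul_index _
  have h2 : Nat.card (Cn u) * (m * n) = Nat.card G := by
    have := Subgroup.card_mul_index (Cn u)
    rwa [show (Cn u).index = m * n from hiu] at this
  have h3 : Nat.card T * T.index = Nat.card G := Subgroup.card_mul_index T
  have hjk : j + k = e := by
    apply pow_mul_eq htp (x := (P' : Subgroup ↥(Cn u)).index * m) (y := T.index) ?_ hconf.sylT
    · rw [pow_add, ← hj, ← hk, ← he, h3, ← h2, ← h1]
      ring
    · intro hd
      rcases (Nat.Prime.dvd_mul htp).1 hd with h | h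
      · exact hidx' h
      · exact htm h
  have hPn : Nat.card P * n = Nat.card T := by
    rw [hcardP, hj, hk, he, ← pow_add, hjk]
  -- conjugate `P` into `T`
  obtain ⟨g, hg⟩ := hSylow t htp P T hPp hconf.sylT
  -- a non-commuting pair in `T`
  obtain ⟨y', hy'T, z', hz'T, hyz⟩ : ∃ y' ∈ T, ∃ z' ∈ T, y' * z' ≠ z' * y' := by
    by_contra hno
    apply hconf.nab
    intro x hx y hy
    by_contra hne
    exact hno ⟨x, hx, y, hy, hne⟩
  have hcls := hconf.cls y' hy'T ⟨z', hz'T, hyz⟩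
  have hcard_eq : Nat.card (Cn y' ⊓ T : Subgroup G) = Nat.card P := by
    have h4 : n * Nat.card (Cn y' ⊓ T : Subgroup G) = n * Nat.card P := by
      rw [← hcls, ← hPn, mul_comm]
    exact Nat.eq_of_mul_eq_mul_left (by omega) h4
  by_contra hcon
  have hcentral : ∀ x ∈ P, ∀ z ∈ T, (g * x * g⁻¹) * z = z * (g * x * g⁻¹) := by
    intro x hx z hz
    by_contra hne
    refine hcon ⟨g, g * x * g⁻¹, hg x hx, ⟨z, hz, hne⟩, ?_⟩
    rw [mem_Cn_conj_iff]
    have h5 : g⁻¹ * (g * x * g⁻¹) * g = x := by group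
    rw [h5]
    exact hPle hx
  obtain ⟨T1, hT1⟩ : ∃ T1 : Subgroup G, T1 = P.map (MulAut.conj g).toMonoidHom := ⟨_, rfl⟩
  have hT1card : Nat.card T1 = Nat.card P := by
    rw [hT1]
    exact Subgroup.card_map_of_injective (MulAut.conj g).injective
  have hT1mem : ∀ w, w ∈ T1 ↔ ∃ x ∈ P, g * x * g⁻¹ = w := by
    intro w
    rw [hT1]
    simp [Subgroup.mem_map]
  have hT1le : T1 ≤ Cn y' ⊓ T := by
    intro w hw
    obtain ⟨x, hx, rfl⟩ := (hT1mem w).1 hw
    refine Subgroup.mem_inf.2 ⟨?_, hg x hx⟩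
    rw [mem_Cn_iff]
    exact (hcentral x hx y' hy'T).symm
  have hT1eq : T1 = Cn y' ⊓ T :=
    Subgroup.eq_of_le_of_card_ge hT1le (by rw [hT1card, hcard_eq])
  have hy'T1 : y' ∈ T1 := by
    rw [hT1eq]
    exact Subgroup.mem_inf.2 ⟨(mem_Cn_iff y' y').2 rfl, hy'T⟩
  obtain ⟨x, hx, hxy⟩ := (hT1mem y').1 hy'T1
  apply hyz
  have h6 := hcentral x hx z' hz'T
  rw [hxy] at h6
  exact h6

end Cfsg.Agent.Lib.Helper11.CS3
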